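import Cfsg.Agent.Lib.Twisted.FixAll

/-!
For the data of a twisted group, `tw.Fx = G¹ T_σ`, `T_σ` abelian normalising `G¹`: commutators of fixed elements lie in `G¹`, and a perfect subgroup of `tw.Fx` lies in `G¹`.
-/

set_option autoImplicit false
set_option linter.unusedSectionVars false
set_option linter.unusedVariables false
set_option linter.ambiguousOpen false
set_option linter.dupNamespace false

namespace Cfsg.Agent.Lib.Twisted.FixComm

open scoped MatrixGroups Matrix commutatorElement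
open Cfsg Lie ChevalleyDatum
open Cfsg.Agent.Lib.Chev
open Tables Tables2 Tables3 Raise Basic AxBasic Torus Products Products2 Mono1 Mono2 Mono3 Bn
open Cfsg.Agent.Lib.Twisted.Fact Cfsg.Agent.Lib.Twisted.Bruhat Cfsg.Agent.Lib.Twisted.Tw
open Cfsg.Agent.Lib.Twisted.Struct Cfsg.Agent.Lib.Twisted.FixAll

variable {D : ChevalleyDatum} {K : Type*} [Field K] {h : Tab D} {ax : Ax D K} {tw : Tw h ax}
  {G1 : Subgroup (GL D.Idx K)}

/-- The form of the fixed elements. -/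
theorem Fx_form (T : TD h ax tw G1) (h2 : Tab2 D) {g : GL D.Idx K} (hg0 : g ∈ tw.Fx) :
    ∃ g₁ ∈ G1, ∃ a₀ ∈ D.diagonalSubgroup K, tw.s a₀ = a₀ ∧ ∃ g₂ ∈ G1, g = g₁ * a₀ * g₂ := by
  obtain ⟨hg, hfix⟩ := hg0
  obtain ⟨b, hb, n, hn, u, hu, rfl⟩ := (normal_form h h2 ax).1 g hg
  obtain ⟨π, c, Hn⟩ := exists_isNor h h2 ax hn
  have hu' : u ∈ rootClosure ax (invP π) := invS_le_invP h2 Hn hu
  have huU : u ∈ D.posUnipotent K := invS_le_U ax n hu
  have hnG := monomial_le_group h ax hn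
  have hbG := borel_le_group h ax hb
  have huG := U_le_group h ax huU
  have hbs := tw.s_B hb
  have hns := tw.s_N h2 hn
  have hsu := tw.s_U huU
  have e0 : tw.s b * tw.s n * tw.s u = b * n * u := by
    rw [← hfix, tw.s_mul _ (Subgroup.mul_mem _ hbG hnG) _ huG, tw.s_mul _ hbG _ hnG]
  have hBu : ∀ {x : GL D.Idx K}, x ∈ D.posUnipotent K → x ∈ D.borelSubgroup K :=
    fun hx => (le_sup_left : D.posUnipotent K ≤ D.borelSubgroup K) hx
  have hd := cell_unique h h2 ax hbs (hBu hsu) hb (hBu huU) hns hn e0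
  -- the permutation commutes with the twist
  have hcomm : ∀ r, π (tw.ρ r) = tw.ρ (π r) :=
    tw.comm_rho h2 hnG (Subgroup.inv_mem _ hd) (by group) Hn
  obtain ⟨a, ha, p, hp, rfl⟩ := N_form_comm T h2 _ n π c hn Hn hcomm le_rfl
  have hpG1 := T.closure_n_le hp
  have hpF := T.G1_le hpG1
  have haG := diagonal_le_group h ax ha
  have haB : a ∈ D.borelSubgroup K := (le_sup_right : D.diagonalSubgroup K ≤ D.borelSubgroup K) ha
  -- the two factors are fixed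
  have hb' : b * a ∈ D.borelSubgroup K := Subgroup.mul_mem _ hb haB
  have hb'G := borel_le_group h ax hb'
  have hsu' : tw.s u ∈ rootClosure ax (invP π) := by
    apply tw.s_rootClosure (fun r hr => hr.1) _ hu'
    intro r hr
    exact T.invP_rho h2 hcomm r hr
  have e1 : tw.s (b * a) * p * tw.s u = b * a * p * u := by
    have : tw.s (b * a * (p * u)) = b * a * (p * u) := by
      rw [show b * a * (p * u) = b * (a * p) * u by group]
      exact hfix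
    rw [tw.s_mul _ hb'G _ (Subgroup.mul_mem _ hpF.1 huG), tw.s_mul _ hpF.1 _ huG, hpF.2] at this
    rw [← mul_assoc, ← mul_assoc] at this
    exact this
  set z := tw.s u * u⁻¹ with hz
  have hzP : z ∈ rootClosure ax (invP π) := Subgroup.mul_mem _ hsu' (Subgroup.inv_mem _ hu')
  have hzV : (a * p) * z * (a * p)⁻¹ ∈ rootClosure ax D.IsNegRoot := by
    apply conj_closure Hn (fun r hr => hr.1) _ hzP
    rintro r ⟨hr0, hr, hrn⟩
    exact hrn
  rw [← negUnipotent_eq ax] at hzV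
  have hzV' : p * z * p⁻¹ ∈ D.negUnipotent K := by
    have := diagonal_conj_V ax h (Subgroup.inv_mem _ ha) hzV
    have e2 : a⁻¹ * ((a * p) * z * (a * p)⁻¹) * a⁻¹⁻¹ = p * z * p⁻¹ := by group
    rwa [e2] at this
  have e3 : (tw.s (b * a))⁻¹ * (b * a) = p * z * p⁻¹ := by
    have : tw.s (b * a) = b * a * p * u * (tw.s u)⁻¹ * p⁻¹ := by
      rw [← e1]; group
    rw [this, hz]; group
  have h4 : p * z * p⁻¹ ∈ D.borelSubgroup K ⊓ D.negUnipotent K := by
    refine ⟨?_, hzV'⟩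
    rw [← e3]
    exact Subgroup.mul_mem _ (Subgroup.inv_mem _ (tw.s_B hb')) hb'
  rw [borel_inf_V ax h, Subgroup.mem_bot] at h4
  have e4 : tw.s (b * a) = b * a := by
    have h5 : (tw.s (b * a))⁻¹ * (b * a) = 1 := by rw [e3, h4]
    have h6 := mul_eq_one_iff_eq_inv.mp h5
    exact inv_inj.mp h6
  have e5 : tw.s u = u := by
    rw [e4] at e1
    exact (mul_left_cancel e1)
  have huG1 := T.U_fix h2 huU e5
  -- the Borel factor
  obtain ⟨u₀, hu₀, a₀, ha₀, e6⟩ := (mem_borel_iff ax h).mp hb'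
  have hu₀G := U_le_group h ax hu₀
  have ha₀G := diagonal_le_group h ax ha₀
  have e7 : tw.s u₀ * tw.s a₀ = u₀ * a₀ := by
    rw [← tw.s_mul _ hu₀G _ ha₀G, ← e6, e4]
  have e8 : u₀⁻¹ * tw.s u₀ = a₀ * (tw.s a₀)⁻¹ := by
    have : tw.s u₀ = u₀ * a₀ * (tw.s a₀)⁻¹ := by rw [← e7]; group
    rw [this]; group
  have h5 : u₀⁻¹ * tw.s u₀ ∈ D.posUnipotent K ⊓ D.diagonalSubgroup K := by
    refine ⟨Subgroup.mul_mem _ (Subgroup.inv_mem _ hu₀) (tw.s_U hu₀), ?_⟩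
    rw [e8]
    exact Subgroup.mul_mem _ ha₀ (Subgroup.inv_mem _ (tw.s_H ha₀))
  rw [U_inf_H ax h, Subgroup.mem_bot] at h5
  have e9 : tw.s u₀ = u₀ := by
    have h6 : u₀ * (u₀⁻¹ * tw.s u₀) = u₀ := by rw [h5, mul_one]
    simpa using h6
  have e10 : tw.s a₀ = a₀ := by
    rw [e9] at e7
    exact mul_left_cancel e7
  have h7 := T.U_fix h2 hu₀ e9
  have : b * (a * p) * u = u₀ * a₀ * p * u := by
    rw [← e6]; group
  refine ⟨u₀, h7, a₀, ha₀, e10, p * u, Subgroup.mul_mem _ hpG1 huG1, ?_⟩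
  rw [this]
  group

/-- A fixed element of the torus normalises `G¹`. -/
theorem conj_mem (T : TD h ax tw G1) (h2 : Tab2 D) {a : GL D.Idx K} (ha : a ∈ D.diagonalSubgroup K) (hs : tw.s a = a)
    {x : GL D.Idx K} (hx : x ∈ G1) : a * x * a⁻¹ ∈ G1 := by
  have haG := diagonal_le_group h ax ha
  have hfx : ∀ {y : GL D.Idx K}, y ∈ G1 → y ∈ D.group K → tw.s (a * y * a⁻¹) = a * y * a⁻¹ := by
    intro y hy hyG
    have hF := T.G1_le hy
    rw [tw.s_mul _ (Subgroup.mul_mem _ haG hyG) _ (Subgroup.inv_mem _ haG), tw.s_mul _ haG _ hyG, tw.s_inv haG, hs, hF.2]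
  let P : Subgroup (GL D.Idx K) := G1.comap (MulAut.conj a).toMonoidHom
  have hle : (D.posUnipotent K ⊓ G1) ⊔ (D.negUnipotent K ⊓ G1) ≤ P := by
    refine sup_le ?_ ?_
    · rintro y ⟨hyU, hyG⟩
      show a * y * a⁻¹ ∈ G1
      exact T.U_fix h2 (diagonal_conj_U ax h ha hyU) (hfx hyG (U_le_group h ax hyU))
    · rintro y ⟨hyV, hyG⟩
      show a * y * a⁻¹ ∈ G1
      exact T.V_fix h2 (diagonal_conj_V ax h ha hyV) (hfx hyG (V_le_group h ax hyV))
  exact hle (T.gen hx)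

/-- The fixed elements are `a g'`. -/
theorem Fx_form' (T : TD h ax tw G1) (h2 : Tab2 D) {g : GL D.Idx K} (hg0 : g ∈ tw.Fx) :
    ∃ a₀ ∈ D.diagonalSubgroup K, tw.s a₀ = a₀ ∧ ∃ g' ∈ G1, g = a₀ * g' := by
  obtain ⟨g₁, hg₁, a₀, ha₀, hs, g₂, hg₂, rfl⟩ := Fx_form T h2 hg0
  have hs' : tw.s a₀⁻¹ = a₀⁻¹ := by
    rw [tw.s_inv (diagonal_le_group h ax ha₀), hs]
  have h1 := conj_mem T h2 (Subgroup.inv_mem _ ha₀) hs' hg₁
  rw [inv_inv] at h1
  refine ⟨a₀, ha₀, hs, a₀⁻¹ * g₁ * a₀ * g₂, Subgroup.mul_mem _ h1 hg₂, ?_⟩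
  group

/-- Commutators of fixed elements lie in `G¹`. -/
theorem comm_mem (T : TD h ax tw G1) (h2 : Tab2 D) {g g' : GL D.Idx K} (hg : g ∈ tw.Fx) (hg' : g' ∈ tw.Fx) : ⁅g, g'⁆ ∈ G1 := by
  obtain ⟨a, ha, hs, x, hx, rfl⟩ := Fx_form' T h2 hg
  obtain ⟨b, hb, hs', y, hy, rfl⟩ := Fx_form' T h2 hg'
  have hab : a * b = b * a := diagonal_comm ax h ha hb
  have hbi : tw.s b⁻¹ = b⁻¹ := by
    rw [tw.s_inv (diagonal_le_group h ax hb), hs']
  have h1 : b⁻¹ * x * b⁻¹⁻¹ ∈ G1 := conj_mem T h2 (Subgroup.inv_mem _ hb) hbi hx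
  rw [inv_inv] at h1
  have h3 : a * ((b⁻¹ * x * b) * y * x⁻¹) * a⁻¹ ∈ G1 :=
    conj_mem T h2 ha hs (Subgroup.mul_mem _ (Subgroup.mul_mem _ h1 hy) (Subgroup.inv_mem _ hx))
  have h4 : b * ((a * ((b⁻¹ * x * b) * y * x⁻¹) * a⁻¹) * y⁻¹) * b⁻¹ ∈ G1 :=
    conj_mem T h2 hb hs' (Subgroup.mul_mem _ h3 (Subgroup.inv_mem _ hy))
  have e : ⁅a * x, b * y⁆ = b * ((a * ((b⁻¹ * x * b) * y * x⁻¹) * a⁻¹) * y⁻¹) * b⁻¹ := by
    have e1 : b * a * b⁻¹ = a := by
      rw [← hab]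
      group
    rw [commutatorElement_def]
    calc a * x * (b * y) * (a * x)⁻¹ * (b * y)⁻¹ = a * x * b * y * x⁻¹ * a⁻¹ * y⁻¹ * b⁻¹ := by group
      _ = (b * a * b⁻¹) * x * b * y * x⁻¹ * a⁻¹ * y⁻¹ * b⁻¹ := by rw [e1]
      _ = _ := by group
  rw [e]
  exact h4

/-- A homomorphism from a perfect group to `tw.Fx` has its image in `G¹`. -/
theorem map_perfect_mem (T : TD h ax tw G1) (h2 : Tab2 D) {P : Type*} [Group P] (hP : commutator P = ⊤) (f : P →* GL D.Idx K)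
    (hf : ∀ x, f x ∈ tw.Fx) (x : P) : f x ∈ G1 := by
  have hle : commutator P ≤ G1.comap f := by
    rw [commutator_def, Subgroup.commutator_le]
    intro a _ b _
    show f ⁅a, b⁆ ∈ G1
    rw [map_commutatorElement]
    exact comm_mem T h2 (hf a) (hf b)
  have hx : x ∈ commutator P := by
    rw [hP]
    trivial
  exact hle hx

end Cfsg.Agent.Lib.Twisted.FixComm
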