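import Mathlib
import Cfsg.Agent.Lib.BNPair.Basic

/-!
# Rigidity of automorphisms of groups with a split `(B, N)`-pair

An abstract set of axioms, satisfied by the twisted groups of rank two, under which every automorphism
is, up to an inner automorphism, one preserving `U`, `V`, `H`, the simple root classes and the classes
of the representatives `n j` modulo `H`; and one which moreover fixes the simple root classes pointwise
is trivial.
-/

set_option autoImplicit false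
set_option linter.unusedSectionVars false
set_option linter.unusedVariables false
set_option linter.style.haveILetI false

namespace Cfsg.Agent.Lib.Twisted.OutA

open Cfsg.Agent.Lib.BNPair.Basic
open scoped Pointwise

/-- The data. -/
structure RD (G : Type*) [Group G] (ι : Type*) where
  P : Cfsg.BNPair G
  U : Subgroup G
  V : Subgroup G
  H : Subgroup G
  n : ι → G
  A : ι → Subgroup G
  A' : ι → Subgroup G
  Y : ι → Subgroup G
  N₀ : G
  S_eq : P.S = Set.range n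
  n_inj : Function.Injective n
  B_iff : ∀ x, x ∈ P.B ↔ ∀ u ∈ U, x * u * x⁻¹ ∈ U
  H_iff : ∀ x, x ∈ H ↔ (∀ u ∈ U, x * u * x⁻¹ ∈ U) ∧ ∀ v ∈ V, x * v * x⁻¹ ∈ V
  B_form : ∀ b ∈ P.B, ∃ u ∈ U, ∃ h ∈ H, b = u * h
  U_H : ∀ u ∈ U, u ∈ H → u = 1
  UH_V : ∀ u ∈ U, ∀ h ∈ H, u * h ∈ V → u * h = 1
  N₀_U : ∀ u ∈ U, N₀ * u * N₀⁻¹ ∈ V
  N₀_V : ∀ v ∈ V, N₀⁻¹ * v * N₀ ∈ U
  N₀_mem : ∃ a ∈ H, ∃ p ∈ Subgroup.closure (Set.range n), N₀ = a * p
  opp : ∀ g, (∀ x ∈ U, g * x * g⁻¹ ∈ U → x = 1) → ∃ u ∈ U, ∀ x ∈ U, u⁻¹ * (g * x * g⁻¹) * u ∈ V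
  A_le : ∀ j, A j ≤ U
  A'_le : ∀ j, A' j ≤ V
  Y_le : ∀ j, Y j ≤ U
  U_fac : ∀ j, ∀ u ∈ U, ∃ a ∈ A j, ∃ y ∈ Y j, u = a * y
  AY : ∀ j, ∀ a ∈ A j, a ∈ Y j → a = 1
  H_A : ∀ j, ∀ h ∈ H, ∀ a ∈ A j, h * a * h⁻¹ ∈ A j
  H_Y : ∀ j, ∀ h ∈ H, ∀ y ∈ Y j, h * y * h⁻¹ ∈ Y j
  n_H : ∀ j, ∀ h ∈ H, n j * h * (n j)⁻¹ ∈ H
  n_H' : ∀ j, ∀ h ∈ H, (n j)⁻¹ * h * n j ∈ H
  n_Y : ∀ j, ∀ y ∈ Y j, n j * y * (n j)⁻¹ ∈ Y j
  n_Y' : ∀ j, ∀ y ∈ Y j, (n j)⁻¹ * y * n j ∈ Y j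
  n_A : ∀ j, ∀ a ∈ A j, n j * a * (n j)⁻¹ ∈ A' j
  n_A' : ∀ j, ∀ y ∈ A' j, (n j)⁻¹ * y * n j ∈ A j
  CA : ∀ j, ∀ a ∈ A j, (∀ h ∈ H, h * a * h⁻¹ = a) → a = 1
  A_ne : ∀ j, ∃ a ∈ A j, a ≠ 1
  A_card : ∀ j j', Nat.card (A j) = Nat.card (A j') → j = j'
  form : ∀ j, ∃ a ∈ A j, ∃ y ∈ A' j, ∃ a' ∈ A j, n j = a * y * a'
  gen : Subgroup.closure ((⋃ j, (A j : Set G)) ∪ Set.range n) = ⊤

variable {G : Type*} [Group G] {ι : Type*} (R : RD G ι)

namespace RD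

/-- The minimal parabolic subgroups. -/
def par (j : ι) : Subgroup G := R.P.parabolic {R.n j}

lemma n_mem_S (j : ι) : R.n j ∈ R.P.S := by
  rw [R.S_eq]
  exact ⟨j, rfl⟩

lemma U_le_B : R.U ≤ R.P.B := by
  intro u hu
  rw [R.B_iff]
  intro v hv
  exact R.U.mul_mem (R.U.mul_mem hu hv) (R.U.inv_mem hu)

lemma H_le_B : R.H ≤ R.P.B := by
  intro h hh
  rw [R.B_iff]
  exact ((R.H_iff h).mp hh).1

lemma H_U {h u : G} (hh : h ∈ R.H) (hu : u ∈ R.U) : h * u * h⁻¹ ∈ R.U := ((R.H_iff h).mp hh).1 u hu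

lemma H_V {h v : G} (hh : h ∈ R.H) (hv : v ∈ R.V) : h * v * h⁻¹ ∈ R.V := ((R.H_iff h).mp hh).2 v hv

lemma B_V {v : G} (hb : v ∈ R.P.B) (hv : v ∈ R.V) : v = 1 := by
  obtain ⟨u, hu, h, hh, rfl⟩ := R.B_form v hb
  exact R.UH_V u hu h hh hv

lemma U_V {u : G} (hu : u ∈ R.U) (hv : u ∈ R.V) : u = 1 := R.B_V (R.U_le_B hu) hv

lemma n_notMem_B (j : ι) : R.n j ∉ R.P.B := s_notMem_B (R.n_mem_S j)

lemma n_mem_par (j : ι) : R.n j ∈ R.par j := subset_parabolic _ rfl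

lemma B_le_par (j : ι) : R.P.B ≤ R.par j := B_le_parabolic _

/-- The elements of the minimal parabolic subgroups. -/
lemma mem_par {j : ι} {g : G} (hg : g ∈ R.par j) : g ∈ R.P.B ∨ g ∈ dc R.P (R.n j) := by
  have hJ : ({R.n j} : Set G) ⊆ R.P.S := by simpa using R.n_mem_S j
  obtain ⟨m, hm, hgm⟩ := (mem_parabolic_iff hJ g).mp hg
  rw [Subgroup.mem_closure_singleton] at hm
  obtain ⟨k, rfl⟩ := hm
  have hsq : R.n j * R.n j ∈ R.P.B := R.P.sq_mem _ (R.n_mem_S j)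
  rcases Int.even_or_odd' k with ⟨l, rfl | rfl⟩
  · left
    have h1 : R.n j ^ (2 * l) ∈ R.P.B := by
      rw [zpow_mul, zpow_two]
      exact Subgroup.zpow_mem _ hsq _
    exact (mem_dc_of_mem_B h1).mp hgm
  · right
    have h1 : R.n j ^ (2 * l + 1) = (R.n j * R.n j) ^ l * R.n j := by
      rw [zpow_add, zpow_one, zpow_mul, zpow_two]
    have h2 : R.n j ^ (2 * l + 1) ∈ dc R.P (R.n j) := by
      rw [h1]
      exact mem_dc.mpr ⟨_, Subgroup.zpow_mem _ hsq l, 1, R.P.B.one_mem, by simp⟩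
    rwa [dc_eq_of_mem h2] at hgm

/-- The left form of an element of the cell. -/
lemma par_left {j : ι} {g : G} (hg : g ∈ dc R.P (R.n j)) : ∃ a ∈ R.A j, ∃ b ∈ R.P.B, g = a * R.n j * b := by
  obtain ⟨c, hc, c', hc', rfl⟩ := mem_dc.mp hg
  obtain ⟨u, hu, h, hh, rfl⟩ := R.B_form c hc
  obtain ⟨a, ha, y, hy, rfl⟩ := R.U_fac j u hu
  refine ⟨a, ha, ((R.n j)⁻¹ * y * R.n j) * ((R.n j)⁻¹ * h * R.n j) * c', ?_, by group⟩
  refine R.P.B.mul_mem (R.P.B.mul_mem ?_ ?_) hc'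
  · exact R.U_le_B (R.Y_le j (R.n_Y' j y hy))
  · exact R.H_le_B (R.n_H' j h hh)

/-- The right form of an element of the cell. -/
lemma par_right {j : ι} {g : G} (hg : g ∈ dc R.P (R.n j)) :
    ∃ u ∈ R.U, ∃ h ∈ R.H, ∃ a ∈ R.A j, g = u * R.n j * h * a := by
  obtain ⟨c, hc, c', hc', rfl⟩ := mem_dc.mp hg
  obtain ⟨u', hu', h', hh', rfl⟩ := R.B_form c' hc'
  obtain ⟨a₁, ha₁, y₁, hy₁, e⟩ := R.U_fac j u'⁻¹ (R.U.inv_mem hu')
  have hu'e : u' = y₁⁻¹ * a₁⁻¹ := by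
    have := congrArg (·⁻¹) e
    simpa using this
  subst hu'e
  have hc2 : c * (R.n j * y₁⁻¹ * (R.n j)⁻¹) ∈ R.P.B :=
    R.P.B.mul_mem hc (R.U_le_B (R.Y_le j (R.n_Y j _ ((R.Y j).inv_mem hy₁))))
  obtain ⟨u₃, hu₃, h₃, hh₃, e3⟩ := R.B_form _ hc2
  refine ⟨u₃, hu₃, ((R.n j)⁻¹ * h₃ * R.n j) * h', R.H.mul_mem (R.n_H' j h₃ hh₃) hh', h'⁻¹ * a₁⁻¹ * h', ?_, ?_⟩
  · have := R.H_A j h'⁻¹ (R.H.inv_mem hh') a₁⁻¹ ((R.A j).inv_mem ha₁)
    simpa using this
  · have e4 : c = u₃ * h₃ * (R.n j * y₁⁻¹ * (R.n j)⁻¹)⁻¹ := by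
      rw [← e3]; group
    rw [e4]
    group

/-- The elements of the minimal parabolic normalizing `H`. -/
theorem n_form_aux {j : ι} {u h a : G} (hu : u ∈ R.U) (hh : h ∈ R.H) (ha : a ∈ R.A j)
    (hN : ∀ x ∈ R.H, (u * R.n j * h * a) * x * (u * R.n j * h * a)⁻¹ ∈ R.H) : a = 1 := by
  apply R.CA j a ha
  intro x hx
  set n := R.n j with hn
  set c := a * (x * a⁻¹ * x⁻¹) with hc
  have hcA : c ∈ R.A j :=
    (R.A j).mul_mem ha (R.H_A j x hx _ ((R.A j).inv_mem ha))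
  set y := (n * h) * c * (n * h)⁻¹ with hy
  have hyA : y ∈ R.V := by
    apply R.A'_le j
    have h1 := R.n_A j _ (R.H_A j h hh c hcA)
    have e : y = R.n j * (h * c * h⁻¹) * (R.n j)⁻¹ := by rw [hy, hn]; group
    rw [e]
    exact h1
  set x' := (n * h) * x * (n * h)⁻¹ with hx'
  have hx'H : x' ∈ R.H := by
    have e : x' = R.n j * (h * x * h⁻¹) * (R.n j)⁻¹ := by rw [hx', hn]; group
    rw [e]
    exact R.n_H j _ (R.H.mul_mem (R.H.mul_mem hh hx) (R.H.inv_mem hh))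
  set z := (u * n * h * a) * x * (u * n * h * a)⁻¹ with hz
  have hzH : z ∈ R.H := hN x hx
  have e1 : z = u * y * x' * u⁻¹ := by
    rw [hz, hy, hx', hc]
    group
  have e2 : y = (u⁻¹ * (z * u * z⁻¹)) * (z * x'⁻¹) := by
    rw [e1]
    group
  have hy1 : y = 1 := by
    have h3 := R.UH_V _ (R.U.mul_mem (R.U.inv_mem hu) (R.H_U hzH hu)) _ (R.H.mul_mem hzH (R.H.inv_mem hx'H))
    rw [← e2] at h3
    exact h3 hyA
  have hc1 : c = 1 := by
    have : c = (n * h)⁻¹ * y * (n * h) := by rw [hy]; group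
    rw [this, hy1]
    group
  have h4 : x * a⁻¹ * x⁻¹ = a⁻¹ := eq_inv_of_mul_eq_one_right hc1
  calc x * a * x⁻¹ = (x * a⁻¹ * x⁻¹)⁻¹ := by group
    _ = a := by rw [h4, inv_inv]

/-- The centralizer of `H` in `U` is trivial. -/
theorem CU {u : G} (hu : u ∈ R.U) (hc : ∀ h ∈ R.H, h * u * h⁻¹ = u) : u = 1 := by
  have stepY : ∀ (j : ι) {u : G}, u ∈ R.U → (∀ h ∈ R.H, h * u * h⁻¹ = u) → u ∈ R.Y j := by
    intro j u hu hc
    obtain ⟨a, ha, y, hy, rfl⟩ := R.U_fac j u hu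
    have ha1 : a = 1 := by
      apply R.CA j a ha
      intro h hh
      have h1 := hc h hh
      have h2 : a⁻¹ * (h * a * h⁻¹) = y * (h * y * h⁻¹)⁻¹ := by
        have e : h * (a * y) * h⁻¹ = (h * a * h⁻¹) * (h * y * h⁻¹) := by group
        rw [e] at h1
        rw [inv_mul_eq_iff_eq_mul, ← mul_assoc, eq_mul_inv_iff_mul_eq, h1]
      have h3 : a⁻¹ * (h * a * h⁻¹) ∈ R.A j := (R.A j).mul_mem ((R.A j).inv_mem ha) (R.H_A j h hh a ha)
      have h4 : a⁻¹ * (h * a * h⁻¹) ∈ R.Y j := by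
        rw [h2]
        exact (R.Y j).mul_mem hy ((R.Y j).inv_mem (R.H_Y j h hh y hy))
      have h5 := R.AY j _ h3 h4
      rw [inv_mul_eq_one] at h5
      exact h5.symm
    rw [ha1, one_mul]
    exact hy
  let Q : G → Prop := fun u => u ∈ R.U ∧ ∀ h ∈ R.H, h * u * h⁻¹ = u
  have stepN : ∀ (j : ι) {u : G}, Q u → Q (R.n j * u * (R.n j)⁻¹) := by
    rintro j u ⟨hu, hc⟩
    refine ⟨R.Y_le j (R.n_Y j u (stepY j hu hc)), fun h hh => ?_⟩
    have h1 := hc _ (R.n_H' j h hh)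
    calc h * (R.n j * u * (R.n j)⁻¹) * h⁻¹
        = R.n j * ((R.n j)⁻¹ * h * R.n j * u * ((R.n j)⁻¹ * h * R.n j)⁻¹) * (R.n j)⁻¹ := by group
      _ = _ := by rw [h1]
  have stepN' : ∀ (j : ι) {u : G}, Q u → Q ((R.n j)⁻¹ * u * R.n j) := by
    rintro j u ⟨hu, hc⟩
    refine ⟨R.Y_le j (R.n_Y' j u (stepY j hu hc)), fun h hh => ?_⟩
    have h1 := hc _ (R.n_H j h hh)
    calc h * ((R.n j)⁻¹ * u * R.n j) * h⁻¹
        = (R.n j)⁻¹ * (R.n j * h * (R.n j)⁻¹ * u * (R.n j * h * (R.n j)⁻¹)⁻¹) * R.n j := by group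
      _ = _ := by rw [h1]
  have stepC : ∀ c ∈ Subgroup.closure (Set.range R.n), ∀ {u : G}, Q u → Q (c * u * c⁻¹) := by
    intro c hc
    induction hc using Subgroup.closure_induction'' with
    | mem s hs =>
      obtain ⟨j, rfl⟩ := hs
      intro u hu
      exact stepN j hu
    | inv_mem s hs =>
      obtain ⟨j, rfl⟩ := hs
      intro u hu
      have := stepN' j hu
      simpa using this
    | one =>
      intro u hu
      simpa using hu
    | mul a b _ _ ha hb =>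
      intro u hu
      have := ha (hb hu)
      have e : a * b * u * (a * b)⁻¹ = a * (b * u * b⁻¹) * a⁻¹ := by group
      rw [e]
      exact this
  obtain ⟨a, ha, p, hp, e⟩ := R.N₀_mem
  have hQ := stepC p hp (u := u) ⟨hu, hc⟩
  have h1 : R.N₀ * u * R.N₀⁻¹ = p * u * p⁻¹ := by
    rw [e]
    have := hQ.2 a ha
    calc a * p * u * (a * p)⁻¹ = a * (p * u * p⁻¹) * a⁻¹ := by group
      _ = _ := this
  have h2 : p * u * p⁻¹ = 1 := R.U_V hQ.1 (h1 ▸ R.N₀_U u hu)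
  have h3 : u = p⁻¹ * (p * u * p⁻¹) * p := by group
  rw [h3, h2]
  group

/-- The elements of the cell normalizing `H`. -/
theorem n_form {j : ι} {g : G} (hg : g ∈ dc R.P (R.n j)) (hN : ∀ x ∈ R.H, g * x * g⁻¹ ∈ R.H) :
    ∃ h ∈ R.H, g = R.n j * h := by
  obtain ⟨u, hu, h, hh, a, ha, rfl⟩ := R.par_right hg
  have ha1 := R.n_form_aux hu hh ha hN
  subst ha1
  refine ⟨h, hh, ?_⟩
  have hu1 : u = 1 := by
    apply R.CU hu
    intro x hx
    have hx2 : (R.n j * h)⁻¹ * x * (R.n j * h) ∈ R.H := by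
      have e : (R.n j * h)⁻¹ * x * (R.n j * h) = h⁻¹ * ((R.n j)⁻¹ * x * R.n j) * h⁻¹⁻¹ := by group
      rw [e]
      exact R.H.mul_mem (R.H.mul_mem (R.H.inv_mem hh) (R.n_H' j x hx)) (R.H.inv_mem (R.H.inv_mem hh))
    have h3 := hN _ hx2
    have e3 : (u * R.n j * h * 1) * ((R.n j * h)⁻¹ * x * (R.n j * h)) * (u * R.n j * h * 1)⁻¹ = u * x * u⁻¹ := by
      group
    rw [e3] at h3
    have h4 : u * (x * u⁻¹ * x⁻¹) ∈ R.U := R.U.mul_mem hu (R.H_U hx (R.U.inv_mem hu))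
    have h5 : u * (x * u⁻¹ * x⁻¹) ∈ R.H := by
      have e : u * (x * u⁻¹ * x⁻¹) = (u * x * u⁻¹) * x⁻¹ := by group
      rw [e]
      exact R.H.mul_mem h3 (R.H.inv_mem hx)
    have h7 := R.U_H _ h4 h5
    have h8 : x * u⁻¹ * x⁻¹ = u⁻¹ := eq_inv_of_mul_eq_one_right h7
    calc x * u * x⁻¹ = (x * u⁻¹ * x⁻¹)⁻¹ := by group
      _ = u := by rw [h8, inv_inv]
  subst hu1
  group

/-- The classes of negative roots lie in the minimal parabolic subgroups. -/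
lemma A'_le_par (j : ι) : R.A' j ≤ R.par j := by
  intro y hy
  have h1 : (R.n j)⁻¹ * y * R.n j ∈ R.par j := R.B_le_par j (R.U_le_B (R.A_le j (R.n_A' j y hy)))
  have e : y = R.n j * ((R.n j)⁻¹ * y * R.n j) * (R.n j)⁻¹ := by group
  rw [e]
  exact (R.par j).mul_mem ((R.par j).mul_mem (R.n_mem_par j) h1) ((R.par j).inv_mem (R.n_mem_par j))

/-- The classes of negative roots and of positive roots have the same order. -/
lemma card_A' (j : ι) : Nat.card (R.A' j) = Nat.card (R.A j) := by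
  refine Nat.card_congr ⟨fun y => ⟨(R.n j)⁻¹ * y.1 * R.n j, R.n_A' j y.1 y.2⟩,
    fun a => ⟨R.n j * a.1 * (R.n j)⁻¹, R.n_A j a.1 a.2⟩, ?_, ?_⟩
  · rintro ⟨y, hy⟩
    apply Subtype.ext
    show R.n j * ((R.n j)⁻¹ * y * R.n j) * (R.n j)⁻¹ = y
    group
  · rintro ⟨a, ha⟩
    apply Subtype.ext
    show (R.n j)⁻¹ * (R.n j * a * (R.n j)⁻¹) * R.n j = a
    group

variable [Finite G]

/-- The intersection of `V` and a minimal parabolic subgroup. -/
theorem inf_par (j : ι) : R.V ⊓ R.par j = R.A' j := by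
  classical
  symm
  apply Subgroup.eq_of_le_of_card_ge (le_inf (R.A'_le j) (R.A'_le_par j))
  have hcell : ∀ z : ↥(R.V ⊓ R.par j), z.1 ∉ R.P.B → ∃ a : R.A j, ∃ b ∈ R.P.B, z.1 = a.1 * R.n j * b := by
    intro z hz
    rcases R.mem_par z.2.2 with h | h
    · exact absurd h hz
    · obtain ⟨a, ha, b, hb, e⟩ := R.par_left h
      exact ⟨⟨a, ha⟩, b, hb, e⟩
  let f : ↥(R.V ⊓ R.par j) → Option (R.A j) := fun z =>
    if h : z.1 ∈ R.P.B then none else some (Classical.choose (hcell z h))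
  have hf : Function.Injective f := by
    intro z z' hzz
    simp only [f] at hzz
    by_cases h : z.1 ∈ R.P.B <;> by_cases h' : z'.1 ∈ R.P.B
    · have e1 := R.B_V h z.2.1
      have e2 := R.B_V h' z'.2.1
      exact Subtype.ext (e1.trans e2.symm)
    · simp [h, h'] at hzz
    · simp [h, h'] at hzz
    · simp only [h, h', dif_neg, not_false_eq_true, Option.some.injEq] at hzz
      obtain ⟨b, hb, e⟩ := Classical.choose_spec (hcell z h)
      obtain ⟨b', hb', e'⟩ := Classical.choose_spec (hcell z' h')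
      rw [← hzz] at e'
      have h1 : z.1⁻¹ * z'.1 ∈ R.P.B := by
        have e2 : z.1⁻¹ * z'.1 = b⁻¹ * b' := by
          generalize (Classical.choose (hcell z h) : R.A j) = A at e e'
          calc z.1⁻¹ * z'.1 = (A.1 * R.n j * b)⁻¹ * (A.1 * R.n j * b') := by rw [← e, ← e']
            _ = _ := by group
        rw [e2]
        exact R.P.B.mul_mem (R.P.B.inv_mem hb) hb'
      have h2 : z.1⁻¹ * z'.1 ∈ R.V := R.V.mul_mem (R.V.inv_mem z.2.1) z'.2.1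
      have h3 := R.B_V h1 h2
      rw [inv_mul_eq_one] at h3
      exact Subtype.ext h3
  have h1 : Nat.card ↥(R.V ⊓ R.par j) ≤ Nat.card (R.A j) + 1 := by
    have := Nat.card_le_card_of_injective f hf
    rwa [Finite.card_option] at this
  have h2 : Nat.card (R.A' j) ∣ Nat.card ↥(R.V ⊓ R.par j) :=
    Subgroup.card_dvd_of_le (le_inf (R.A'_le j) (R.A'_le_par j))
  rw [R.card_A'] at h2 ⊢
  obtain ⟨k, hk⟩ := h2
  obtain ⟨a, ha, ha1⟩ := R.A_ne j
  have h3 : 2 ≤ Nat.card (R.A j) := by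
    haveI : Nontrivial (R.A j) := ⟨⟨⟨a, ha⟩, 1, fun h => ha1 (congrArg Subtype.val h)⟩⟩
    exact Finite.one_lt_card
  have hk1 : k ≤ 1 := by
    by_contra hk2
    have hk3 : 2 ≤ k := by omega
    have : Nat.card (R.A j) * 2 ≤ Nat.card (R.A j) * k := Nat.mul_le_mul_left _ hk3
    omega
  have hk4 : Nat.card ↥(R.V ⊓ R.par j) ≤ Nat.card (R.A j) * 1 := by
    rw [hk]
    exact Nat.mul_le_mul_left _ hk1
  simpa using hk4

/-- An automorphism preserving `U` and `V`. -/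
structure Pres (β : MulAut G) : Prop where
  U : ∀ x ∈ R.U, β x ∈ R.U
  V : ∀ x ∈ R.V, β x ∈ R.V

omit [Finite G] in
lemma sub_map_le [Finite G] (β : MulAut G) (S : Subgroup G) (h : ∀ x ∈ S, β x ∈ S) {x : G} (hx : β x ∈ S) : x ∈ S := by
  have hle : S.map β.toMonoidHom ≤ S := by
    rintro _ ⟨y, hy, rfl⟩
    exact h y hy
  have hc : Nat.card (S.map β.toMonoidHom) = Nat.card S := Subgroup.card_map_of_injective β.injective
  have h1 := Subgroup.eq_of_le_of_card_ge hle hc.ge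
  rw [← h1] at hx
  obtain ⟨y, hy, e⟩ := hx
  have h2 : y = x := β.injective e
  exact h2 ▸ hy

variable {R}

lemma Pres.inv {β : MulAut G} (hβ : R.Pres β) : R.Pres β⁻¹ := by
  constructor
  · intro x hx
    apply sub_map_le β R.U hβ.U
    show β (β⁻¹ x) ∈ R.U
    rwa [MulAut.apply_inv_self]
  · intro x hx
    apply sub_map_le β R.V hβ.V
    show β (β⁻¹ x) ∈ R.V
    rwa [MulAut.apply_inv_self]

lemma Pres.B {β : MulAut G} (hβ : R.Pres β) {x : G} (hx : x ∈ R.P.B) : β x ∈ R.P.B := by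
  rw [R.B_iff] at hx ⊢
  intro u hu
  have h1 := hβ.U _ (hx _ (hβ.inv.U u hu))
  rw [map_mul, map_mul, map_inv, MulAut.apply_inv_self] at h1
  exact h1

lemma Pres.H {β : MulAut G} (hβ : R.Pres β) {x : G} (hx : x ∈ R.H) : β x ∈ R.H := by
  rw [R.H_iff] at hx ⊢
  constructor
  · intro u hu
    have h1 := hβ.U _ (hx.1 _ (hβ.inv.U u hu))
    rw [map_mul, map_mul, map_inv, MulAut.apply_inv_self] at h1
    exact h1
  · intro u hu
    have h1 := hβ.V _ (hx.2 _ (hβ.inv.V u hu))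
    rw [map_mul, map_mul, map_inv, MulAut.apply_inv_self] at h1
    exact h1

lemma Pres.exists_par_le {β : MulAut G} (hβ : R.Pres β) (j : ι) :
    ∃ j', R.par j' ≤ (R.par j).map β.toMonoidHom := by
  set M := (R.par j).map β.toMonoidHom with hM
  have hB : R.P.B ≤ M := by
    intro b hb
    refine ⟨β⁻¹ b, R.B_le_par j (hβ.inv.B hb), ?_⟩
    show β (β⁻¹ b) = b
    rw [MulAut.apply_inv_self]
  have hex : ∃ j', R.n j' ∈ M := by
    by_contra hno
    push Not at hno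
    have he : {s | s ∈ R.P.S ∧ s ∈ M} = (∅ : Set G) := by
      ext s
      simp only [Set.mem_ofPred_eq, Set.mem_empty_iff_false, iff_false, not_and]
      intro hs hsM
      rw [R.S_eq] at hs
      obtain ⟨j', rfl⟩ := hs
      exact hno j' hsM
    have h1 := eq_parabolic (P := R.P) hB
    rw [he] at h1
    have h2 : β (R.n j) ∈ M := ⟨R.n j, R.n_mem_par j, rfl⟩
    rw [h1] at h2
    have h3 : R.P.parabolic ∅ = R.P.B := by
      simp [Cfsg.BNPair.parabolic]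
    rw [h3] at h2
    have h4 := hβ.inv.B h2
    rw [MulAut.inv_apply_self] at h4
    exact R.n_notMem_B j h4
  obtain ⟨j', hj'⟩ := hex
  refine ⟨j', sup_le hB ?_⟩
  rw [Subgroup.closure_le]
  rintro _ rfl
  exact hj'

omit [Finite G] in
lemma par_le_iff {j j' : ι} (h : R.par j' ≤ R.par j) : j' = j := by
  have h1 : R.n j' ∈ R.par j := h (R.n_mem_par j')
  have hJ : ({R.n j} : Set G) ⊆ R.P.S := by simpa using R.n_mem_S j
  have h2 := mem_of_mem_parabolic hJ (R.n_mem_S j') h1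
  exact R.n_inj h2

lemma Pres.map_par {β : MulAut G} (hβ : R.Pres β) (j : ι) : (R.par j).map β.toMonoidHom = R.par j := by
  obtain ⟨j', hj'⟩ := hβ.exists_par_le j
  obtain ⟨j'', hj''⟩ := hβ.inv.exists_par_le j'
  have h1 : (R.par j').map (β⁻¹ : MulAut G).toMonoidHom ≤ R.par j := by
    rintro _ ⟨x, hx, rfl⟩
    obtain ⟨y, hy, e⟩ := hj' hx
    have e2 : (β⁻¹ : MulAut G).toMonoidHom x = y := by
      rw [← e]
      exact MulAut.inv_apply_self G β y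
    rw [e2]
    exact hy
  have h2 : j'' = j := par_le_iff (hj''.trans h1)
  subst h2
  have h3 : (R.par j'').map β.toMonoidHom ≤ R.par j' := by
    rintro _ ⟨x, hx, rfl⟩
    obtain ⟨y, hy, e⟩ := hj'' hx
    have e2 : β.toMonoidHom x = y := by
      rw [← e]
      exact MulAut.apply_inv_self G β y
    rw [e2]
    exact hy
  have h4 : (R.par j'').map β.toMonoidHom = R.par j' := le_antisymm h3 hj'
  -- the orders of the classes
  have h5 : (R.V ⊓ R.par j'').map β.toMonoidHom = R.V ⊓ R.par j' := by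
    apply le_antisymm
    · rintro _ ⟨x, hx, rfl⟩
      exact ⟨hβ.V x hx.1, h3 ⟨x, hx.2, rfl⟩⟩
    · rintro y ⟨hy1, hy2⟩
      rw [← h4] at hy2
      obtain ⟨x, hx, rfl⟩ := hy2
      exact ⟨x, ⟨sub_map_le β R.V hβ.V hy1, hx⟩, rfl⟩
  have h6 : Nat.card ↥(R.V ⊓ R.par j'') = Nat.card ↥(R.V ⊓ R.par j') := by
    rw [← h5]
    exact (Subgroup.card_map_of_injective β.injective).symm
  rw [R.inf_par, R.inf_par, R.card_A', R.card_A'] at h6
  have h7 := R.A_card _ _ h6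
  rw [h4, ← h7]

lemma Pres.par {β : MulAut G} (hβ : R.Pres β) {j : ι} {x : G} (hx : x ∈ R.par j) : β x ∈ R.par j := by
  rw [← hβ.map_par j]
  exact ⟨x, hx, rfl⟩

lemma Pres.A' {β : MulAut G} (hβ : R.Pres β) {j : ι} {y : G} (hy : y ∈ R.A' j) : β y ∈ R.A' j := by
  rw [← R.inf_par]
  exact ⟨hβ.V y (R.A'_le j hy), hβ.par (R.A'_le_par j hy)⟩

/-- The image of a representative. -/
theorem Pres.n {β : MulAut G} (hβ : R.Pres β) (j : ι) : ∃ h ∈ R.H, β (R.n j) = R.n j * h := by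
  apply R.n_form
  · rcases R.mem_par (hβ.par (R.n_mem_par j)) with h | h
    · exfalso
      have h4 := hβ.inv.B h
      rw [MulAut.inv_apply_self] at h4
      exact R.n_notMem_B j h4
    · exact h
  · intro x hx
    have h1 := hβ.H (R.n_H j _ (hβ.inv.H hx))
    rw [map_mul, map_mul, map_inv, MulAut.apply_inv_self] at h1
    exact h1

lemma Pres.A {β : MulAut G} (hβ : R.Pres β) {j : ι} {a : G} (ha : a ∈ R.A j) : β a ∈ R.A j := by
  obtain ⟨h, hh, e⟩ := hβ.n j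
  have h1 := hβ.A' (R.n_A j a ha)
  rw [map_mul, map_mul, map_inv, e] at h1
  have h2 := R.n_A' j _ h1
  have e2 : (R.n j)⁻¹ * (R.n j * h * β a * (R.n j * h)⁻¹) * R.n j = h * β a * h⁻¹ := by group
  rw [e2] at h2
  have h3 := R.H_A j h⁻¹ (R.H.inv_mem hh) _ h2
  have e3 : h⁻¹ * (h * β a * h⁻¹) * h⁻¹⁻¹ = β a := by group
  rwa [e3] at h3

/-- An automorphism preserving `U` and `V` and fixing the simple classes pointwise is trivial. -/
theorem Pres.eq_one {β : MulAut G} (hβ : R.Pres β) (hA : ∀ j, ∀ a ∈ R.A j, β a = a) : β = 1 := by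
  have hn : ∀ j, β (R.n j) = R.n j := by
    intro j
    obtain ⟨h, hh, e⟩ := hβ.n j
    obtain ⟨a, ha, y, hy, a', ha', e2⟩ := R.form j
    have h1 : R.n j * h = a * β y * a' := by
      rw [← e, e2, map_mul, map_mul, hA j a ha, hA j a' ha']
    have hy2 : β y ∈ R.V := R.A'_le j (hβ.A' hy)
    have e3 : y⁻¹ * β y = (a' * (h * a'⁻¹ * h⁻¹)) * h := by
      have e4 : β y = a⁻¹ * (R.n j * h) * a'⁻¹ := by rw [h1]; group
      have e5 : y = a⁻¹ * R.n j * a'⁻¹ := by rw [e2]; group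
      rw [e4, e5]
      group
    have h3 := R.UH_V _ (R.U.mul_mem (R.A_le j ha') (R.H_U hh (R.U.inv_mem (R.A_le j ha')))) h hh
      (by rw [← e3]; exact R.V.mul_mem (R.V.inv_mem (R.A'_le j hy)) hy2)
    have h4 : h = 1 := by
      have e6 : (a' * (h * a'⁻¹ * h⁻¹)) * h = a' * h * a'⁻¹ := by group
      rw [e6] at h3
      have e7 : h = a'⁻¹ * (a' * h * a'⁻¹) * a' := by group
      rw [e7, h3]
      group
    rw [e, h4, mul_one]
  have hcl : ∀ g ∈ Subgroup.closure ((⋃ j, (R.A j : Set G)) ∪ Set.range R.n), β g = g := by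
    intro g hg
    induction hg using Subgroup.closure_induction with
    | mem x hx =>
      rcases hx with hx | ⟨j, rfl⟩
      · obtain ⟨j, hj⟩ := Set.mem_iUnion.mp hx
        exact hA j x hj
      · exact hn j
    | one => exact map_one _
    | mul x y _ _ hx hy => rw [map_mul, hx, hy]
    | inv x _ hx => rw [map_inv, hx]
  refine MulEquiv.ext fun g => ?_
  apply hcl
  rw [R.gen]
  trivial

variable (R)

/-- Every automorphism is an inner automorphism times one preserving `U` and `V`. -/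
theorem exists_pres {p : ℕ} [Fact p.Prime] (hP : IsPGroup p R.U) (hI : ¬ p ∣ R.U.index) (α : MulAut G) :
    ∃ (g : G) (β : MulAut G), α = MulAut.conj g * β ∧ R.Pres β := by
  classical
  let S : Sylow p G := hP.toSylow hI
  have hPc : (S : Subgroup G) = R.U := rfl
  obtain ⟨g, hg⟩ := MulAction.exists_smul_eq G (α • S) S
  have hmem : ∀ x ∈ R.U, g * α x * g⁻¹ ∈ R.U := by
    intro x hx
    have h1 : (S : Subgroup G) = MulAut.conj g • (α • (S : Subgroup G)) := by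
      conv_lhs => rw [← hg]
      rfl
    rw [← hPc, h1, Subgroup.mem_smul_pointwise_iff_exists]
    refine ⟨α x, ?_, rfl⟩
    rw [Subgroup.mem_smul_pointwise_iff_exists]
    exact ⟨x, hx, rfl⟩
  let β₁ : MulAut G := MulAut.conj g * α
  have hβ₁ : ∀ x, β₁ x = g * α x * g⁻¹ := fun _ => rfl
  have hβ₁U : ∀ x ∈ R.U, β₁ x ∈ R.U := hmem
  set g₂ := β₁ R.N₀ with hg₂
  have hcond : ∀ x ∈ R.U, g₂ * x * g₂⁻¹ ∈ R.U → x = 1 := by
    intro x hx hc
    have hx0 : β₁⁻¹ x ∈ R.U := by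
      apply sub_map_le β₁ R.U hβ₁U
      rwa [MulAut.apply_inv_self]
    have e1 : g₂ * x * g₂⁻¹ = β₁ (R.N₀ * β₁⁻¹ x * R.N₀⁻¹) := by
      rw [map_mul, map_mul, map_inv, MulAut.apply_inv_self]
    rw [e1] at hc
    have h2 := sub_map_le β₁ R.U hβ₁U hc
    have h3 := R.U_V h2 (R.N₀_U _ hx0)
    have h4 : β₁⁻¹ x = 1 := by
      have e2 : β₁⁻¹ x = R.N₀⁻¹ * (R.N₀ * β₁⁻¹ x * R.N₀⁻¹) * R.N₀ := by group
      rw [e2, h3]
      group
    have e5 : x = β₁ (β₁⁻¹ x) := (MulAut.apply_inv_self _ _ _).symm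
    rw [e5, h4, map_one]
  obtain ⟨u, hu, huV⟩ := R.opp g₂ hcond
  let β : MulAut G := MulAut.conj u⁻¹ * β₁
  have hβ : ∀ z, β z = u⁻¹ * β₁ z * u := by
    intro z
    show u⁻¹ * β₁ z * u⁻¹⁻¹ = _
    rw [inv_inv]
  refine ⟨g⁻¹ * u, β, ?_, ?_, ?_⟩
  · refine MulEquiv.ext fun w => ?_
    show α w = (g⁻¹ * u) * β w * (g⁻¹ * u)⁻¹
    rw [hβ, hβ₁]
    group
  · intro x hx
    rw [hβ]
    exact R.U.mul_mem (R.U.mul_mem (R.U.inv_mem hu) (hβ₁U x hx)) hu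
  · intro v hv
    rw [hβ]
    have hx0 := R.N₀_V v hv
    have e1 : β₁ v = g₂ * β₁ (R.N₀⁻¹ * v * R.N₀) * g₂⁻¹ := by
      rw [hg₂, ← map_inv, ← map_mul, ← map_mul]
      congr 1
      group
    rw [e1]
    exact huV _ (hβ₁U _ hx0)

end RD

end Cfsg.Agent.Lib.Twisted.OutA
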