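import Cfsg.Agent.Lib.Twisted.OutA
import Cfsg.Agent.Lib.Twisted.Order

/-!
# The axioms of `OutA` for the twisted groups
-/

set_option autoImplicit false
set_option linter.unusedSectionVars false
set_option linter.unusedVariables false
set_option linter.ambiguousOpen false
set_option linter.dupNamespace false

namespace Cfsg.Agent.Lib.Twisted.OutB

open scoped MatrixGroups Matrix
open Cfsg Lie ChevalleyDatum
open Cfsg.Agent.Lib.Chev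
open Tables Tables2 Tables3 Raise Basic AxBasic Torus Products Products2 Mono1 Mono2 Mono3 Bn ChevSimple
open Cfsg.Agent.Lib.Twisted.Fact Cfsg.Agent.Lib.Twisted.Bruhat Cfsg.Agent.Lib.Twisted.Tw
open Cfsg.Agent.Lib.Twisted.Struct Cfsg.Agent.Lib.Twisted.Struct.TD Cfsg.Agent.Lib.Twisted.OutA

variable {D : ChevalleyDatum} {K : Type*} [Field K]
variable {h : Tab D} {ax : Ax D K} {tw : Tw h ax} {G1 : Subgroup (GL D.Idx K)} (T : TD h ax tw G1)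
variable (h2 : Tab2 D)

/-- `U¹`. -/
abbrev cU (D : ChevalleyDatum) (K : Type*) [Field K] (G1 : Subgroup (GL D.Idx K)) : Subgroup ↥G1 :=
  (D.posUnipotent K).subgroupOf G1

/-- `V¹`. -/
abbrev cV (D : ChevalleyDatum) (K : Type*) [Field K] (G1 : Subgroup (GL D.Idx K)) : Subgroup ↥G1 :=
  (D.negUnipotent K).subgroupOf G1

/-- `H¹`. -/
abbrev cH (D : ChevalleyDatum) (K : Type*) [Field K] (G1 : Subgroup (GL D.Idx K)) : Subgroup ↥G1 :=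
  (D.diagonalSubgroup K).subgroupOf G1

/-- The representatives. -/
def cn (j : T.ι) : ↥G1 := ⟨T.n j, T.n_mem j⟩

/-- The longest element. -/
def cN₀ : ↥G1 := ⟨T.n₀, T.n₀_mem⟩

/-- A root class. -/
abbrev cA (j : T.ι) : Subgroup ↥G1 := (rootClosure ax (Psi D (T.J j))).subgroupOf G1

/-- A negative root class. -/
abbrev cA' (j : T.ι) : Subgroup ↥G1 := (rootClosure ax (NPsi D (T.J j))).subgroupOf G1

/-- The complement. -/
abbrev cY (j : T.ι) : Subgroup ↥G1 := (rootClosure ax (Co D (T.J j))).subgroupOf G1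

lemma U_le_borel : D.posUnipotent K ≤ D.borelSubgroup K := le_sup_left

lemma H_le_borel : D.diagonalSubgroup K ≤ D.borelSubgroup K := le_sup_right

include T h2

lemma borel_conj_U {x u : GL D.Idx K} (hx : x ∈ D.borelSubgroup K) (hu : u ∈ D.posUnipotent K) :
    x * u * x⁻¹ ∈ D.posUnipotent K := by
  obtain ⟨u₀, hu₀, a, ha, rfl⟩ := (mem_borel_iff ax h).mp hx
  have e : u₀ * a * u * (u₀ * a)⁻¹ = u₀ * (a * u * a⁻¹) * u₀⁻¹ := by group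
  rw [e]
  exact Subgroup.mul_mem _ (Subgroup.mul_mem _ hu₀ (diagonal_conj_U ax h ha hu)) (Subgroup.inv_mem _ hu₀)

/-- The normalizer of `U¹`. -/
theorem B_iff (x : ↥G1) : x ∈ (T.bnPair h2).B ↔ ∀ u ∈ cU D K G1, x * u * x⁻¹ ∈ cU D K G1 := by
  constructor
  · intro hx u hu
    have hx0 : x ∈ (D.borelSubgroup K ⊓ G1).subgroupOf G1 := hx
    have hx' : (x : GL D.Idx K) ∈ D.borelSubgroup K := (Subgroup.mem_subgroupOf.mp hx0).1
    rw [Subgroup.mem_subgroupOf] at hu ⊢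
    exact borel_conj_U T h2 hx' hu
  · intro hx
    obtain ⟨m, hm⟩ := T.bruhat1 h2 x
    obtain ⟨b₁, hb₁, b₂, hb₂, e⟩ := DoubleCoset.mem_doubleCoset.mp hm
    have hb₁' : b₁ ∈ D.borelSubgroup K ⊓ G1 := hb₁
    have hb₂' : b₂ ∈ D.borelSubgroup K ⊓ G1 := hb₂
    obtain ⟨π, c, H⟩ := exists_isNor h h2 ax m.2.1
    have hcomm := tw.comm_rho_of_fix h2 (T.G1_le m.2.2) H
    have hpos : ∀ r : Fin D.nroots, D.IsPosRoot r → D.IsPosRoot (π r) := by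
      by_contra hn
      obtain ⟨j, hj⟩ := T.exists_desc h2 m.2.1 H hcomm hn
      obtain ⟨x₁, hx₁, hx₁G, hne⟩ := T.x_ne j
      apply hne
      have hP : x₁ ∈ D.posUnipotent K := psi_le_U ax _ hx₁
      have h1 : m.1 * x₁ * m.1⁻¹ ∈ D.negUnipotent K := by
        rw [negUnipotent_eq ax]
        exact conj_closure H (fun r hr => hr.1.1) hj hx₁
      have hmG : m.1 ∈ G1 := m.2.2
      -- `m` normalises `U¹`
      have h3 : m.1 * x₁ * m.1⁻¹ ∈ D.posUnipotent K := by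
        have hb₂i : b₂⁻¹ * x₁ * b₂ ∈ D.posUnipotent K := by
          have := borel_conj_U T h2 (Subgroup.inv_mem _ hb₂'.1) hP
          simpa using this
        have hb₂G : b₂⁻¹ * x₁ * b₂ ∈ G1 :=
          Subgroup.mul_mem _ (Subgroup.mul_mem _ (Subgroup.inv_mem _ hb₂'.2) hx₁G) hb₂'.2
        have h4 := hx ⟨b₂⁻¹ * x₁ * b₂, hb₂G⟩ (Subgroup.mem_subgroupOf.mpr hb₂i)
        rw [Subgroup.mem_subgroupOf] at h4
        have e2 : ((x * ⟨b₂⁻¹ * x₁ * b₂, hb₂G⟩ * x⁻¹ : ↥G1) : GL D.Idx K) = x.1 * (b₂⁻¹ * x₁ * b₂) * x.1⁻¹ := rfl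
        rw [e2, e] at h4
        have h5 := borel_conj_U T h2 (Subgroup.inv_mem _ hb₁'.1) h4
        have e3 : b₁⁻¹ * (b₁ * m.1 * b₂ * (b₂⁻¹ * x₁ * b₂) * (b₁ * m.1 * b₂)⁻¹) * b₁⁻¹⁻¹ = m.1 * x₁ * m.1⁻¹ := by group
        rwa [e3] at h5
      have h5 : m.1 * x₁ * m.1⁻¹ ∈ D.borelSubgroup K ⊓ D.negUnipotent K := ⟨U_le_borel h3, h1⟩
      rw [borel_inf_V ax h, Subgroup.mem_bot] at h5
      have e5 : x₁ = m.1⁻¹ * (m.1 * x₁ * m.1⁻¹) * m.1 := by group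
      rw [e5, h5]
      group
    have hmH := mem_H_of_pos h h2 ax m.2.1 H hpos
    show x ∈ (D.borelSubgroup K ⊓ G1).subgroupOf G1
    rw [Subgroup.mem_subgroupOf]
    refine ⟨?_, x.2⟩
    rw [e]
    exact Subgroup.mul_mem _ (Subgroup.mul_mem _ hb₁'.1 (H_le_borel hmH)) hb₂'.1

lemma n₀_conj_U {u : GL D.Idx K} (hu : u ∈ D.posUnipotent K) : T.n₀ * u * T.n₀⁻¹ ∈ D.negUnipotent K := by
  obtain ⟨c, H⟩ := T.n₀_nor
  rw [negUnipotent_eq ax]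
  rw [posUnipotent_eq ax] at hu
  exact conj_closure H (fun r hr => hr.1) (fun r hr => T.n₀_neg r hr) hu

/-- The normalizer of `U¹` and `V¹`. -/
theorem H_iff (x : ↥G1) : x ∈ cH D K G1 ↔
    (∀ u ∈ cU D K G1, x * u * x⁻¹ ∈ cU D K G1) ∧ ∀ v ∈ cV D K G1, x * v * x⁻¹ ∈ cV D K G1 := by
  constructor
  · intro hx
    rw [Subgroup.mem_subgroupOf] at hx
    constructor
    · intro u hu
      rw [Subgroup.mem_subgroupOf] at hu ⊢
      exact diagonal_conj_U ax h hx hu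
    · intro u hu
      rw [Subgroup.mem_subgroupOf] at hu ⊢
      exact diagonal_conj_V ax h hx hu
  · rintro ⟨h1, h3⟩
    have hB := (B_iff T h2 x).mpr h1
    have hB0 : x ∈ (D.borelSubgroup K ⊓ G1).subgroupOf G1 := hB
    have hB' : (x : GL D.Idx K) ∈ D.borelSubgroup K := (Subgroup.mem_subgroupOf.mp hB0).1
    set y : ↥G1 := (cN₀ T)⁻¹ * x * cN₀ T with hy
    have hyU : ∀ u ∈ cU D K G1, y * u * y⁻¹ ∈ cU D K G1 := by
      intro u hu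
      have h4 : cN₀ T * u * (cN₀ T)⁻¹ ∈ cV D K G1 := by
        rw [Subgroup.mem_subgroupOf] at hu ⊢
        exact n₀_conj_U T h2 hu
      have h5 := h3 _ h4
      rw [Subgroup.mem_subgroupOf] at h5 ⊢
      have h6 := T.n₀_conj_V h2 h5
      have e : y * u * y⁻¹ = (cN₀ T)⁻¹ * (x * (cN₀ T * u * (cN₀ T)⁻¹) * x⁻¹) * cN₀ T := by
        rw [hy]; group
      rw [e]
      exact h6
    have hyB := (B_iff T h2 y).mpr hyU
    have hyB0 : y ∈ (D.borelSubgroup K ⊓ G1).subgroupOf G1 := hyB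
    obtain ⟨u, hu, a, ha, e⟩ := (mem_borel_iff ax h).mp (Subgroup.mem_subgroupOf.mp hyB0).1
    obtain ⟨c, H⟩ := T.n₀_nor
    rw [Subgroup.mem_subgroupOf, ← borel_inf_VH ax h]
    refine ⟨hB', ?_⟩
    have e2 : (x : GL D.Idx K) = (T.n₀ * u * T.n₀⁻¹) * (T.n₀ * a * T.n₀⁻¹) := by
      have e3 : (x : GL D.Idx K) = T.n₀ * (y : GL D.Idx K) * T.n₀⁻¹ := by
        rw [hy]
        show (x : GL D.Idx K) = T.n₀ * (T.n₀⁻¹ * x * T.n₀) * T.n₀⁻¹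
        group
      rw [e3, e]
      group
    rw [e2]
    exact Subgroup.mul_mem_sup (n₀_conj_U T h2 hu) (H.conj_mem_H h ax ha)

/-- The form of `B¹`. -/
theorem B_form (b : ↥G1) (hb : b ∈ (T.bnPair h2).B) : ∃ u ∈ cU D K G1, ∃ a ∈ cH D K G1, b = u * a := by
  have hb0 : b ∈ (D.borelSubgroup K ⊓ G1).subgroupOf G1 := hb
  have hb' := Subgroup.mem_subgroupOf.mp hb0
  obtain ⟨u, hu, a, ha, e⟩ := T.B1_form h2 hb'.1 hb'.2
  exact ⟨⟨u, hu.2⟩, Subgroup.mem_subgroupOf.mpr hu.1, ⟨a, ha.2⟩, Subgroup.mem_subgroupOf.mpr ha.1, Subtype.ext e⟩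

theorem U_H (u : ↥G1) (hu : u ∈ cU D K G1) (ha : u ∈ cH D K G1) : u = 1 := by
  have h1 : (u : GL D.Idx K) ∈ D.posUnipotent K ⊓ D.diagonalSubgroup K :=
    ⟨Subgroup.mem_subgroupOf.mp hu, Subgroup.mem_subgroupOf.mp ha⟩
  rw [U_inf_H ax h, Subgroup.mem_bot] at h1
  exact Subtype.ext h1

theorem UH_V (u : ↥G1) (hu : u ∈ cU D K G1) (a : ↥G1) (ha : a ∈ cH D K G1) (hv : u * a ∈ cV D K G1) : u * a = 1 := by
  have h1 : ((u * a : ↥G1) : GL D.Idx K) ∈ D.borelSubgroup K ⊓ D.negUnipotent K :=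
    ⟨Subgroup.mul_mem _ (U_le_borel (Subgroup.mem_subgroupOf.mp hu)) (H_le_borel (Subgroup.mem_subgroupOf.mp ha)),
      Subgroup.mem_subgroupOf.mp hv⟩
  rw [borel_inf_V ax h, Subgroup.mem_bot] at h1
  exact Subtype.ext h1

theorem N₀_U (u : ↥G1) (hu : u ∈ cU D K G1) : cN₀ T * u * (cN₀ T)⁻¹ ∈ cV D K G1 := by
  rw [Subgroup.mem_subgroupOf] at hu ⊢
  exact n₀_conj_U T h2 hu

theorem N₀_V (v : ↥G1) (hv : v ∈ cV D K G1) : (cN₀ T)⁻¹ * v * cN₀ T ∈ cU D K G1 := by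
  rw [Subgroup.mem_subgroupOf] at hv ⊢
  exact T.n₀_conj_V h2 hv

theorem N₀_mem : ∃ a ∈ cH D K G1, ∃ p ∈ Subgroup.closure (Set.range (cn T)), cN₀ T = a * p := by
  obtain ⟨a, ha, p, hp, e⟩ := T.N1_form h2 T.n₀_mono T.n₀_mem
  have hlift : ∀ p ∈ Subgroup.closure (Set.range T.n), ∃ hpG : p ∈ G1,
      (⟨p, hpG⟩ : ↥G1) ∈ Subgroup.closure (Set.range (cn T)) := by
    intro p hp
    induction hp using Subgroup.closure_induction with
    | mem x hx =>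
      obtain ⟨j, rfl⟩ := hx
      exact ⟨T.n_mem j, Subgroup.subset_closure ⟨j, rfl⟩⟩
    | one => exact ⟨Subgroup.one_mem _, Subgroup.one_mem _⟩
    | mul a b _ _ ha hb =>
      obtain ⟨h3, h4⟩ := ha
      obtain ⟨h5, h6⟩ := hb
      exact ⟨Subgroup.mul_mem _ h3 h5, Subgroup.mul_mem _ h4 h6⟩
    | inv a _ ha =>
      obtain ⟨h3, h4⟩ := ha
      exact ⟨Subgroup.inv_mem _ h3, Subgroup.inv_mem _ h4⟩
  obtain ⟨hpG, hp'⟩ := hlift p hp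
  exact ⟨⟨a, ha.2⟩, Subgroup.mem_subgroupOf.mpr ha.1, ⟨p, hpG⟩, hp', Subtype.ext e⟩

/-- The opposite Sylow subgroups. -/
theorem opp (g : ↥G1) (hg : ∀ x ∈ cU D K G1, g * x * g⁻¹ ∈ cU D K G1 → x = 1) :
    ∃ u ∈ cU D K G1, ∀ x ∈ cU D K G1, u⁻¹ * (g * x * g⁻¹) * u ∈ cV D K G1 := by
  obtain ⟨m, hm⟩ := T.bruhat1 h2 g
  obtain ⟨b₁, hb₁, b₂, hb₂, e⟩ := DoubleCoset.mem_doubleCoset.mp hm
  have hb₁' : b₁ ∈ D.borelSubgroup K ⊓ G1 := hb₁
  have hb₂' : b₂ ∈ D.borelSubgroup K ⊓ G1 := hb₂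
  obtain ⟨u₁, hu₁, a₁, ha₁, e₁⟩ := T.B1_form h2 hb₁'.1 hb₁'.2
  set m' := a₁ * m.1 with hm'
  have hm'N : m' ∈ D.monomialSubgroup K := Subgroup.mul_mem _ ((le_sup_left : _ ≤ D.monomialSubgroup K) ha₁.1) m.2.1
  have hm'G : m' ∈ G1 := Subgroup.mul_mem _ ha₁.2 m.2.2
  obtain ⟨π, c, H⟩ := exists_isNor h h2 ax hm'N
  have hcomm := tw.comm_rho_of_fix h2 (T.G1_le hm'G) H
  have hge : g.1 = u₁ * m' * b₂ := by
    rw [e, e₁, hm']
    group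
  have hneg : ∀ j, ∀ r : Fin D.nroots, Psi D (T.J j) r → D.IsNegRoot (π r) := by
    intro j
    rcases T.dichotomy h2 hm'N H hcomm j with hp | hn
    · exfalso
      obtain ⟨x₁, hx₁, hx₁G, hne⟩ := T.x_ne j
      apply hne
      have hP : x₁ ∈ D.posUnipotent K := psi_le_U ax _ hx₁
      have hb₂i : b₂⁻¹ * x₁ * b₂ ∈ D.posUnipotent K := by
        have := borel_conj_U T h2 (Subgroup.inv_mem _ hb₂'.1) hP
        simpa using this
      have hb₂G : b₂⁻¹ * x₁ * b₂ ∈ G1 :=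
        Subgroup.mul_mem _ (Subgroup.mul_mem _ (Subgroup.inv_mem _ hb₂'.2) hx₁G) hb₂'.2
      have h1 : m' * x₁ * m'⁻¹ ∈ D.posUnipotent K := by
        rw [posUnipotent_eq ax]
        exact conj_closure H (fun r hr => hr.1.1) hp hx₁
      have h3 := hg ⟨b₂⁻¹ * x₁ * b₂, hb₂G⟩ (Subgroup.mem_subgroupOf.mpr hb₂i) (by
        rw [Subgroup.mem_subgroupOf]
        have e2 : ((g * ⟨b₂⁻¹ * x₁ * b₂, hb₂G⟩ * g⁻¹ : ↥G1) : GL D.Idx K) = u₁ * (m' * x₁ * m'⁻¹) * u₁⁻¹ := by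
          show g.1 * (b₂⁻¹ * x₁ * b₂) * g.1⁻¹ = _
          rw [hge]
          group
        rw [e2]
        exact Subgroup.mul_mem _ (Subgroup.mul_mem _ hu₁.1 h1) (Subgroup.inv_mem _ hu₁.1))
      have h4 : b₂⁻¹ * x₁ * b₂ = 1 := congrArg Subtype.val h3
      have e5 : x₁ = b₂ * (b₂⁻¹ * x₁ * b₂) * b₂⁻¹ := by group
      rw [e5, h4]
      group
    · exact hn
  -- `π` sends positive roots to negative roots
  obtain ⟨c₀, H₀⟩ := T.n₀_nor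
  have Hm := (H₀.inv h ax).mul h ax H
  have hmmN : T.n₀⁻¹ * m' ∈ D.monomialSubgroup K := Subgroup.mul_mem _ (Subgroup.inv_mem _ T.n₀_mono) hm'N
  have hmmF : T.n₀⁻¹ * m' ∈ tw.Fx := T.G1_le (Subgroup.mul_mem _ (Subgroup.inv_mem _ T.n₀_mem) hm'G)
  have hcomm2 := tw.comm_rho_of_fix h2 hmmF Hm
  have hpos : ∀ r : Fin D.nroots, D.IsPosRoot r → D.IsPosRoot ((T.π₀⁻¹ * π) r) := by
    by_contra hn
    obtain ⟨j, hj⟩ := T.exists_desc h2 hmmN Hm hcomm2 hn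
    obtain ⟨i, hi, hJi⟩ := T.nonempty j
    have hp := T.simple_psi j hi hJi
    have h1 := hj ⟨D.simple i, h.simple_lt i hi⟩ hp
    have h3 := T.n₀_inv_pos h2 _ (hneg j ⟨D.simple i, h.simple_lt i hi⟩ hp)
    exact not_isNeg_of_isPos h h3 h1
  have hneg2 : ∀ r : Fin D.nroots, D.IsPosRoot r → D.IsNegRoot (π r) := by
    intro r hr
    have h1 := T.n₀_neg _ (hpos r hr)
    simpa using h1
  refine ⟨⟨u₁, hu₁.2⟩, Subgroup.mem_subgroupOf.mpr hu₁.1, fun x hx => ?_⟩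
  rw [Subgroup.mem_subgroupOf] at hx ⊢
  have e3 : (((⟨u₁, hu₁.2⟩ : ↥G1)⁻¹ * (g * x * g⁻¹) * ⟨u₁, hu₁.2⟩ : ↥G1) : GL D.Idx K) =
      m' * (b₂ * x * b₂⁻¹) * m'⁻¹ := by
    show u₁⁻¹ * (g.1 * x.1 * g.1⁻¹) * u₁ = _
    rw [hge]
    group
  rw [e3, negUnipotent_eq ax]
  have h5 := borel_conj_U T h2 hb₂'.1 hx
  rw [posUnipotent_eq ax] at h5
  exact conj_closure H (fun r hr => hr.1) hneg2 h5

theorem U_fac (j : T.ι) (u : ↥G1) (hu : u ∈ cU D K G1) : ∃ a ∈ cA T j, ∃ y ∈ cY T j, u = a * y := by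
  have huinv := Subgroup.inv_mem _ (Subgroup.mem_subgroupOf.mp hu)
  obtain ⟨y, hy, x, hx, e⟩ := U_factor h ax (T.J j) huinv
  have hfix : tw.s (y * x) = y * x := by
    rw [← e]
    exact (T.G1_le (Subgroup.inv_mem _ u.2)).2
  obtain ⟨hfy, hfx⟩ := tw.fix_split h2 (closed_Co h _) (closed_Psi h _) (fun r hr hq => hr.2 hq) (T.ρ_co j) (T.ρ_psi j) hy hx hfix
  have hxG1 : x ∈ G1 := T.cl j x hx hfx
  have hyG1 : y ∈ G1 := by
    have : y = (u : GL D.Idx K)⁻¹ * x⁻¹ := by rw [e]; group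
    rw [this]
    exact Subgroup.mul_mem _ (Subgroup.inv_mem _ u.2) (Subgroup.inv_mem _ hxG1)
  refine ⟨⟨x⁻¹, Subgroup.inv_mem _ hxG1⟩, Subgroup.mem_subgroupOf.mpr (Subgroup.inv_mem _ hx),
    ⟨y⁻¹, Subgroup.inv_mem _ hyG1⟩, Subgroup.mem_subgroupOf.mpr (Subgroup.inv_mem _ hy), ?_⟩
  apply Subtype.ext
  show (u : GL D.Idx K) = x⁻¹ * y⁻¹
  have : (u : GL D.Idx K) = ((u : GL D.Idx K)⁻¹)⁻¹ := by simp
  rw [this, e]
  group

theorem AY (j : T.ι) (a : ↥G1) (ha : a ∈ cA T j) (hy : a ∈ cY T j) : a = 1 := by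
  have h1 := T.n_conj_psi j (Subgroup.mem_subgroupOf.mp ha)
  have h3 := T.n_conj_co j (Subgroup.mem_subgroupOf.mp hy)
  have h4 : T.n j * a.1 * (T.n j)⁻¹ ∈ D.borelSubgroup K ⊓ D.negUnipotent K :=
    ⟨U_le_borel (co_le_U ax _ h3), npsi_le_V h ax _ h1⟩
  rw [borel_inf_V ax h, Subgroup.mem_bot] at h4
  apply Subtype.ext
  show a.1 = 1
  have e5 : a.1 = (T.n j)⁻¹ * (T.n j * a.1 * (T.n j)⁻¹) * T.n j := by group
  rw [e5, h4]
  group

theorem H_A (j : T.ι) (a : ↥G1) (ha : a ∈ cH D K G1) (x : ↥G1) (hx : x ∈ cA T j) : a * x * a⁻¹ ∈ cA T j := by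
  rw [Subgroup.mem_subgroupOf] at ha hx ⊢
  exact diagonal_conj_rootClosure ax h (fun r hr => hr.1.1) ha hx

theorem H_A' (j : T.ι) (a : ↥G1) (ha : a ∈ cH D K G1) (x : ↥G1) (hx : x ∈ cY T j) : a * x * a⁻¹ ∈ cY T j := by
  rw [Subgroup.mem_subgroupOf] at ha hx ⊢
  exact diagonal_conj_rootClosure ax h (fun r hr => hr.1.1) ha hx

theorem n_H (j : T.ι) (a : ↥G1) (ha : a ∈ cH D K G1) : cn T j * a * (cn T j)⁻¹ ∈ cH D K G1 := by
  rw [Subgroup.mem_subgroupOf] at ha ⊢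
  obtain ⟨c, Hn⟩ := T.n_nor j
  exact Hn.conj_mem_H h ax ha

theorem n_H' (j : T.ι) (a : ↥G1) (ha : a ∈ cH D K G1) : (cn T j)⁻¹ * a * cn T j ∈ cH D K G1 := by
  rw [Subgroup.mem_subgroupOf] at ha ⊢
  obtain ⟨c, Hn⟩ := T.n_nor j
  have := (Hn.inv h ax).conj_mem_H h ax ha
  simpa [cn] using this

theorem n_Y (j : T.ι) (y : ↥G1) (hy : y ∈ cY T j) : cn T j * y * (cn T j)⁻¹ ∈ cY T j := by
  rw [Subgroup.mem_subgroupOf] at hy ⊢
  exact T.n_conj_co j hy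

theorem n_Y' (j : T.ι) (y : ↥G1) (hy : y ∈ cY T j) : (cn T j)⁻¹ * y * cn T j ∈ cY T j := by
  rw [Subgroup.mem_subgroupOf] at hy ⊢
  exact T.n_inv_conj_co j hy

theorem n_A (j : T.ι) (y : ↥G1) (hy : y ∈ cA T j) : cn T j * y * (cn T j)⁻¹ ∈ cA' T j := by
  rw [Subgroup.mem_subgroupOf] at hy ⊢
  exact T.n_conj_psi j hy

theorem n_A' (j : T.ι) (y : ↥G1) (hy : y ∈ cA' T j) : (cn T j)⁻¹ * y * cn T j ∈ cA T j := by
  rw [Subgroup.mem_subgroupOf] at hy ⊢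
  exact T.n_inv_conj_npsi j hy

theorem n_inj : Function.Injective (cn T) := by
  intro j j' hj
  have e : T.n j = T.n j' := congrArg Subtype.val hj
  obtain ⟨c, Hn⟩ := T.n_nor j
  obtain ⟨c', Hn'⟩ := T.n_nor j'
  rw [e] at Hn
  exact T.w_inj j j' (IsNor.unique h ax h2 Hn Hn').1

/-- The data of `OutA` for a twisted group. -/
noncomputable def mkRD
    (CA : ∀ j, ∀ a ∈ cA T j, (∀ x ∈ cH D K G1, x * a * x⁻¹ = a) → a = 1)
    (A_card : ∀ j j', Nat.card (cA T j) = Nat.card (cA T j') → j = j')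
    (form : ∀ j, ∃ a ∈ cA T j, ∃ y ∈ cA' T j, ∃ a' ∈ cA T j, cn T j = a * y * a')
    (gen : Subgroup.closure ((⋃ j, ((cA T j : Subgroup ↥G1) : Set ↥G1)) ∪ Set.range (cn T)) = ⊤) :
    RD ↥G1 T.ι where
  P := T.bnPair h2
  U := cU D K G1
  V := cV D K G1
  H := cH D K G1
  n := cn T
  A := cA T
  A' := cA' T
  Y := cY T
  N₀ := cN₀ T
  S_eq := by
    ext g
    constructor
    · rintro ⟨j, hj⟩
      exact ⟨j, Subtype.ext hj.symm⟩
    · rintro ⟨j, rfl⟩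
      exact ⟨j, rfl⟩
  n_inj := n_inj T h2
  B_iff := B_iff T h2
  H_iff := H_iff T h2
  B_form := B_form T h2
  U_H := U_H T h2
  UH_V := UH_V T h2
  N₀_U := N₀_U T h2
  N₀_V := N₀_V T h2
  N₀_mem := N₀_mem T h2
  opp := opp T h2
  A_le j := fun x hx => Subgroup.mem_subgroupOf.mpr (psi_le_U ax _ (Subgroup.mem_subgroupOf.mp hx))
  A'_le j := fun x hx => Subgroup.mem_subgroupOf.mpr (npsi_le_V h ax _ (Subgroup.mem_subgroupOf.mp hx))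
  Y_le j := fun x hx => Subgroup.mem_subgroupOf.mpr (co_le_U ax _ (Subgroup.mem_subgroupOf.mp hx))
  U_fac := U_fac T h2
  AY := AY T h2
  H_A := H_A T h2
  H_Y := H_A' T h2
  n_H := n_H T h2
  n_H' := n_H' T h2
  n_Y := n_Y T h2
  n_Y' := n_Y' T h2
  n_A := n_A T h2
  n_A' := n_A' T h2
  CA := CA
  A_ne j := by
    obtain ⟨x, hx, hxG, hne⟩ := T.x_ne j
    exact ⟨⟨x, hxG⟩, Subgroup.mem_subgroupOf.mpr hx, fun h => hne (congrArg Subtype.val h)⟩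
  A_card := A_card
  form := form
  gen := gen

end Cfsg.Agent.Lib.Twisted.OutB
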